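import Mathlib
import Cfsg.Agent.Lib.Helper90.BrauerWielandt

/-!
# S3814 team project: tools (T1), (CP a), (CP b)
-/

set_option autoImplicit false
set_option linter.style.haveILetI false

namespace Cfsg.Agent.Lib.Helper97.FP

universe u

/-- in a finite group, `g K g⁻¹ ⊆ K` (elementwise) means `g` normalizes `K` -/
theorem mem_normalizer_of_conj_mem {G : Type u} [Group G] [Finite G] (K : Subgroup G) (g : G)
    (h : ∀ k ∈ K, g * k * g⁻¹ ∈ K) : g ∈ Subgroup.normalizer (K : Set G) := by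
  have hpow : ∀ m : ℕ, ∀ a ∈ K, g ^ m * a * (g ^ m)⁻¹ ∈ K := by
    intro m
    induction m with
    | zero => intro a ha; simpa using ha
    | succ m ih =>
      intro a ha
      have h1 := h _ (ih a ha)
      have h2 : g ^ (m + 1) * a * (g ^ (m + 1))⁻¹ = g * (g ^ m * a * (g ^ m)⁻¹) * g⁻¹ := by
        rw [pow_succ']
        group
      rw [h2]
      exact h1
  have hinv : ∀ a ∈ K, g⁻¹ * a * g ∈ K := by
    intro a ha
    have hpos : 0 < orderOf g := orderOf_pos g
    have h1 := hpow (orderOf g - 1) a ha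
    have h2 : g ^ (orderOf g - 1) = g⁻¹ := by
      apply eq_inv_of_mul_eq_one_left
      rw [← pow_succ, Nat.sub_add_cancel hpos, pow_orderOf_eq_one]
    rw [h2, inv_inv] at h1
    exact h1
  rw [Subgroup.mem_normalizer_iff]
  intro n
  constructor
  · exact h n
  · intro hn
    have h1 := hinv _ hn
    have h2 : g⁻¹ * (g * n * g⁻¹) * g = n := by group
    rw [h2] at h1
    exact h1

/-- **(T1)**: `x, y` commuting of prime order `p`, `y ∉ ⟨x⟩`, normalizing a nontrivial
`p'`-subgroup `W`: some nontrivial element of `⟨x, y⟩` has a nontrivial fixed point on `W`.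
(No solvability of `W` needed.) -/
theorem tool_T1 {G : Type u} [Group G] [Finite G] (p : ℕ) (hp : p.Prime) (x y : G)
    (hx : orderOf x = p) (hy : orderOf y = p) (hxy : x * y = y * x)
    (hyx : y ∉ Subgroup.zpowers x) (W : Subgroup G) (hW : W ≠ ⊥) (hpW : ¬ p ∣ Nat.card W)
    (hxW : ∀ w ∈ W, x * w * x⁻¹ ∈ W) (hyW : ∀ w ∈ W, y * w * y⁻¹ ∈ W) :
    ∃ e ∈ Subgroup.closure ({x, y} : Set G), e ≠ 1 ∧ ∃ w ∈ W, w ≠ 1 ∧ e * w = w * e := by
  by_contra hcon
  push Not at hcon
  haveI : Fact p.Prime := ⟨hp⟩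
  have hxp : x ^ p = 1 := by rw [← hx]; exact pow_orderOf_eq_one x
  have hyp : y ^ p = 1 := by rw [← hy]; exact pow_orderOf_eq_one y
  have hx1 : x ≠ 1 := by
    intro h
    rw [h, orderOf_one] at hx
    exact hp.one_lt.ne hx
  have hxc : x ∈ Subgroup.closure ({x, y} : Set G) := Subgroup.subset_closure (by simp)
  have hyc : y ∈ Subgroup.closure ({x, y} : Set G) := Subgroup.subset_closure (by simp)
  have hbw := Cfsg.Agent.Lib.Helper90.brauer_wielandt x y hxy hxp hyp W
    (mem_normalizer_of_conj_mem W x hxW) (mem_normalizer_of_conj_mem W y hyW) hpW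
  unfold Cfsg.Agent.Lib.Helper90.BWFormula at hbw
  have key : ∀ e ∈ Subgroup.closure ({x, y} : Set G), e ≠ 1 →
      Nat.card ↥(W ⊓ Subgroup.centralizer ({e} : Set G)) = 1 := by
    intro e he he1
    have hbot : W ⊓ Subgroup.centralizer ({e} : Set G) = ⊥ := by
      rw [eq_bot_iff]
      intro w hw
      rw [Subgroup.mem_inf, Subgroup.mem_centralizer_iff] at hw
      rw [Subgroup.mem_bot]
      by_contra hw1
      exact hcon e he he1 w hw.1 hw1 (hw.2 e rfl)
    rw [hbot]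
    exact Subgroup.card_bot
  have h1 := key x hxc hx1
  have h2 : ∀ i ∈ Finset.range p,
      Nat.card ↥(W ⊓ Subgroup.centralizer ({x ^ i * y} : Set G)) = 1 := by
    intro i _
    apply key _ (Subgroup.mul_mem _ (Subgroup.pow_mem _ hxc i) hyc)
    intro h
    apply hyx
    have h3 : y = (x ^ i)⁻¹ := eq_inv_of_mul_eq_one_right h
    rw [h3]
    exact Subgroup.inv_mem _ (Subgroup.pow_mem _ (Subgroup.mem_zpowers x) i)
  rw [h1, Finset.prod_congr rfl h2, Finset.prod_const_one, one_mul] at hbw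
  have h4 : Nat.card ↥W = 1 := Nat.eq_one_of_mul_eq_one_right hbw.symm
  exact hW ((Subgroup.card_eq_one).1 h4)

/-- **(CP a)**: `g` normalizes `K`, `gcd(o(g), |K|) = 1`, and `g` commutes with every
commutator `[k, g]`, `k ∈ K`: then `g` centralizes `K`. -/
theorem tool_CPa {G : Type u} [Group G] [Finite G] (K : Subgroup G) (g : G)
    (hgK : ∀ k ∈ K, g * k * g⁻¹ ∈ K) (hcop : Nat.Coprime (orderOf g) (Nat.card K))
    (hc : ∀ k ∈ K, g * (k * g * k⁻¹ * g⁻¹) = (k * g * k⁻¹ * g⁻¹) * g) :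
    ∀ k ∈ K, g * k = k * g := by
  intro k hk
  obtain ⟨w, hw⟩ : ∃ w : G, w = k * g * k⁻¹ * g⁻¹ := ⟨_, rfl⟩
  have hwK : w ∈ K := by
    have h1 := hgK k⁻¹ (K.inv_mem hk)
    have h2 : w = k * (g * k⁻¹ * g⁻¹) := by rw [hw]; group
    rw [h2]
    exact K.mul_mem hk h1
  have hgw : g * w = w * g := by rw [hw]; exact hc k hk
  have hconj : g * k * g⁻¹ = w⁻¹ * k := by rw [hw]; group
  have hpow : ∀ m : ℕ, g ^ m * k * (g ^ m)⁻¹ = (w ^ m)⁻¹ * k := by
    intro m
    induction m with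
    | zero => simp
    | succ m ih =>
      have hgwm : g * (w ^ m)⁻¹ = (w ^ m)⁻¹ * g := by
        have h3 : Commute g (w ^ m) := (show Commute g w from hgw).pow_right m
        exact (h3.inv_right).eq
      calc g ^ (m + 1) * k * (g ^ (m + 1))⁻¹ = g * (g ^ m * k * (g ^ m)⁻¹) * g⁻¹ := by
            rw [pow_succ']; group
        _ = g * ((w ^ m)⁻¹ * k) * g⁻¹ := by rw [ih]
        _ = (g * (w ^ m)⁻¹) * (k * g⁻¹) := by group
        _ = ((w ^ m)⁻¹ * g) * (k * g⁻¹) := by rw [hgwm]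
        _ = (w ^ m)⁻¹ * (g * k * g⁻¹) := by group
        _ = (w ^ m)⁻¹ * (w⁻¹ * k) := by rw [hconj]
        _ = (w ^ (m + 1))⁻¹ * k := by rw [pow_succ]; group
  have h5 := hpow (orderOf g)
  rw [pow_orderOf_eq_one] at h5
  have h6 : w ^ orderOf g = 1 := by
    have h7 : (w ^ orderOf g)⁻¹ = 1 := by
      have h8 : (w ^ orderOf g)⁻¹ * k = 1 * k := by rw [← h5]; group
      exact mul_right_cancel h8
    rw [← inv_inv (w ^ orderOf g), h7, inv_one]
  have h9 : w ^ Nat.card K = 1 := by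
    have h16 : (⟨w, hwK⟩ : ↥K) ^ Nat.card K = 1 := pow_card_eq_one'
    have h10 := congrArg Subtype.val h16
    rw [Subgroup.coe_pow, Subgroup.coe_one] at h10
    exact h10
  have hw1 : w = 1 := by
    have h11 : orderOf w ∣ orderOf g := orderOf_dvd_of_pow_eq_one h6
    have h12 : orderOf w ∣ Nat.card K := orderOf_dvd_of_pow_eq_one h9
    have h13 : orderOf w = 1 := Nat.eq_one_of_dvd_coprimes hcop h11 h12
    exact orderOf_eq_one_iff.1 h13
  rw [hw1] at hw
  have h14 : k * g = g * k := by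
    have h15 : k * g * k⁻¹ * g⁻¹ * (g * k) = k * g := by group
    rw [← hw, one_mul] at h15
    exact h15.symm
  exact h14.symm

/-- **(CP b)** (lifting a fixed coset to a fixed point): `g` of prime power order `c ^ m`,
`N` a `c'`-subgroup normalized by `g` and by `K`, `k ∈ K` with `[g, k] ∈ N`: some element
of the coset `k N` commutes with `g`. -/
theorem tool_CPb {G : Type u} [Group G] [Finite G] (c m : ℕ) (hc : c.Prime) (g : G)
    (hg : orderOf g = c ^ m) (K N : Subgroup G)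
    (hKN : ∀ k ∈ K, ∀ n ∈ N, k * n * k⁻¹ ∈ N) (hgN : ∀ n ∈ N, g * n * g⁻¹ ∈ N)
    (hcN : ¬ c ∣ Nat.card N) (k : G) (hk : k ∈ K) (hkg : g * k * g⁻¹ * k⁻¹ ∈ N) :
    ∃ n ∈ N, g * (k * n) = (k * n) * g := by
  classical
  haveI : Fact c.Prime := ⟨hc⟩
  haveI : Fintype ↥N := Fintype.ofFinite _
  have hmem : ∀ n : ↥N, k⁻¹ * (g * (k * n) * g⁻¹) ∈ N := by
    intro n
    have h1 := hKN k⁻¹ (K.inv_mem hk) _ hkg
    have h2 := hgN n n.2
    have h3 : k⁻¹ * (g * (k * n) * g⁻¹)
        = k⁻¹ * (g * k * g⁻¹ * k⁻¹) * k⁻¹⁻¹ * (g * n * g⁻¹) := by group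
    rw [h3]
    exact N.mul_mem h1 h2
  let f : Function.End ↥N := fun n => ⟨k⁻¹ * (g * (k * n) * g⁻¹), hmem n⟩
  have hpow : ∀ (j : ℕ) (n : ↥N),
      (((f ^ j) n : ↥N) : G) = k⁻¹ * (g ^ j * (k * n) * (g ^ j)⁻¹) := by
    intro j
    induction j with
    | zero =>
      intro n
      rw [pow_zero, pow_zero]
      show (n : G) = _
      group
    | succ j ih =>
      intro n
      rw [pow_succ]
      show (((f ^ j) (f n) : ↥N) : G) = _
      rw [ih (f n)]
      show k⁻¹ * (g ^ j * (k * (k⁻¹ * (g * (k * n) * g⁻¹))) * (g ^ j)⁻¹) = _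
      rw [pow_succ]
      group
  have hf : f ^ c ^ m = 1 := by
    funext n
    apply Subtype.ext
    rw [hpow, ← hg, pow_orderOf_eq_one]
    show _ = (n : G)
    group
  have hmod := Equiv.Perm.card_fixedPoints_modEq (f := f) hf
  by_contra hcon
  push Not at hcon
  have hempty : IsEmpty (Function.fixedPoints f) := by
    constructor
    rintro ⟨n, hn⟩
    apply hcon n n.2
    have h2 : k⁻¹ * (g * (k * n) * g⁻¹) = n := congrArg Subtype.val hn
    calc g * (k * n) = k * (k⁻¹ * (g * (k * n) * g⁻¹)) * g := by group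
      _ = k * n * g := by rw [h2]
  have h0 : Fintype.card ↑(Function.fixedPoints f) = 0 := Fintype.card_eq_zero
  rw [h0] at hmod
  have h4 : c ∣ Fintype.card ↥N := (Nat.modEq_zero_iff_dvd).1 hmod
  rw [← Nat.card_eq_fintype_card] at h4
  exact hcN h4

end Cfsg.Agent.Lib.Helper97.FP
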