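import Mathlib
import Cfsg.Agent.Lib.Helper46.FP.Defs
import Cfsg.Agent.Lib.Helper97.FP.Tools

/-!
# S3814 team project, package P2: `BF_T1`
-/

set_option autoImplicit false
set_option linter.style.haveILetI false

namespace Cfsg.Agent.Lib.Helper97.FP

open Cfsg.Agent.Lib.Helper46.FP

universe u

/-- package P2 of the S3814 team project -/
theorem bf_T1 : Cfsg.Agent.Lib.Helper46.FP.BF_T1.{u} := by
  intro G _ V H t π hc p hp x hx y hy hox hoy hxy hyx
  haveI := hc.fin
  have hVn := hc.Vnormal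
  have hpp := hc.piprime p hp
  have hpt : p ≠ t := fun h => hc.tnot (h ▸ hp)
  haveI : Fact t.Prime := ⟨hc.tprime⟩
  have hVt : IsPGroup t V := by
    intro v
    refine ⟨1, ?_⟩
    apply Subtype.ext
    rw [pow_one, Subgroup.coe_pow, Subgroup.coe_one]
    exact hc.Vexp v v.2
  obtain ⟨k, hk⟩ := IsPGroup.iff_card.1 hVt
  have hpV : ¬ p ∣ Nat.card V := by
    rw [hk]
    intro h
    exact hpt ((Nat.prime_dvd_prime_iff_eq hpp hc.tprime).1 (hpp.dvd_of_dvd_pow h))
  obtain ⟨e, he, he1, w, hw, hw1, hew⟩ := tool_T1 p hpp x y hox hoy hxy hyx V hc.Vne hpV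
    (fun w hw => hVn.conj_mem w hw x) (fun w hw => hVn.conj_mem w hw y)
  exact ⟨e, he, he1, w, hw, hw1, hew.symm⟩

end Cfsg.Agent.Lib.Helper97.FP
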