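import Mathlib
import Cfsg.Agent.Lib.Helper1.Hall
import Cfsg.Agent.Lib.Helper1.HallLe
import Cfsg.Agent.Lib.Helper1.HallConj
import Cfsg.Agent.Lib.Helper1.MinNormal
import Cfsg.Agent.Lib.Helper1.SZConjB
import Cfsg.Agent.S3745
import Cfsg.Agent.Lib.Helper97.FP.Tools
import Cfsg.Agent.Lib.Helper29.FP.T2
import Cfsg.Agent.Lib.Helper37.FP.Easy

/-!
# S3814 team project, package P11 (`PkgRed`): tools

* conjugating coprime-order elements / subgroups into a Hall subgroup;
* a Higman-type lemma: a finite solvable group whose order is divisible by three primes has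
  an element whose order is the product of two of them;
* every element of prime order `p` lies in a `C_p × C_p` in a minimal configuration.
-/

set_option autoImplicit false
set_option linter.style.haveILetI false

namespace Cfsg.Agent.Lib.Helper97.FP

open Cfsg.Agent.Lib
open scoped Pointwise

universe u

/-- a subgroup of order prime to `n` is conjugate into a given Hall subgroup of order `m`
(`|X| = m n`, `X` solvable) -/
theorem exists_conj_le_hall {X : Type u} [Group X] [Finite X] [Group.IsSolvable X] (m n : ℕ)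
    (hX : Nat.card X = m * n) (hmn : m.Coprime n) (H : Subgroup X) (hH : Nat.card H = m)
    (U : Subgroup X) (hU : (Nat.card U).Coprime n) :
    ∃ u : X, ∀ x ∈ U, u * x * u⁻¹ ∈ H := by
  obtain ⟨H', hH', hUH'⟩ := Helper1.hall_le m n hX hmn U hU
  obtain ⟨u, hu⟩ := Helper1.hall_conj m n hX hmn H' H hH' hH
  refine ⟨u, fun x hx => ?_⟩
  rw [← hu]
  have h1 : MulAut.conj u • x ∈ MulAut.conj u • H' :=
    Subgroup.smul_mem_pointwise_smul x (MulAut.conj u) H' (hUH' hx)
  simpa [MulAut.smul_def] using h1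

/-- an element of order prime to `n` is conjugate into a given Hall subgroup of order `m` -/
theorem exists_conj_mem_hall {X : Type u} [Group X] [Finite X] [Group.IsSolvable X] (m n : ℕ)
    (hX : Nat.card X = m * n) (hmn : m.Coprime n) (H : Subgroup X) (hH : Nat.card H = m)
    (g : X) (hg : (orderOf g).Coprime n) : ∃ u : X, u * g * u⁻¹ ∈ H := by
  obtain ⟨u, hu⟩ := exists_conj_le_hall m n hX hmn H hH (Subgroup.zpowers g)
    (by rw [Nat.card_zpowers]; exact hg)
  exact ⟨u, hu g (Subgroup.mem_zpowers g)⟩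

theorem orderOf_conj' {X : Type*} [Group X] (u g : X) : orderOf (u * g * u⁻¹) = orderOf g := by
  have h := orderOf_injective (MulAut.conj u).toMonoidHom (MulAut.conj u).injective g
  simpa [MulAut.conj_apply] using h

/-- core of the Higman-type lemma: `M` acts fixed-point-freely on the normal elementary abelian
`r`-subgroup `N`; `Q` a normal elementary abelian `q`-subgroup of `M`, `q'` another prime
dividing `|M|`: then `M` has an element of order `q q'`. -/
theorem mixed_core {L : Type u} [Group L] [Finite L] (N M : Subgroup L) [hNn : N.Normal]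
    (hNne : N ≠ ⊥) (hNab : ∀ a ∈ N, ∀ b ∈ N, a * b = b * a) (r : ℕ) (hr : r.Prime)
    (hNr : ∀ x ∈ N, x ^ r = 1)
    (hfpf : ∀ g ∈ M, g ≠ 1 → ∀ n ∈ N, n ≠ 1 → g * n ≠ n * g)
    (Q : Subgroup ↥M) [hQn : Q.Normal] (hQne : Q ≠ ⊥) (hQc : ∀ a ∈ Q, ∀ b ∈ Q, a * b = b * a)
    (q : ℕ) (hq : q.Prime) (hqr : q ≠ r) (hQq : ∀ x ∈ Q, x ^ q = 1)
    (q' : ℕ) (hq' : q'.Prime) (hqq' : q ≠ q') (hq'M : q' ∣ Nat.card M) :
    ∃ g : L, orderOf g = q * q' := by
  haveI : Fact q.Prime := ⟨hq⟩
  haveI : Fact q'.Prime := ⟨hq'⟩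
  haveI : Fact r.Prime := ⟨hr⟩
  obtain ⟨x₁, hx₁Q, hx₁1⟩ : ∃ x₁ ∈ Q, x₁ ≠ 1 := by
    by_contra h
    push Not at h
    exact hQne ((Subgroup.eq_bot_iff_forall Q).2 h)
  have hox₁ : orderOf x₁ = q := orderOf_eq_prime (hQq x₁ hx₁Q) hx₁1
  have hox₁L : orderOf (x₁ : L) = q := by rw [Subgroup.orderOf_coe]; exact hox₁
  have hNp : IsPGroup r N := by
    intro v
    refine ⟨1, ?_⟩
    apply Subtype.ext
    rw [pow_one, Subgroup.coe_pow, Subgroup.coe_one]
    exact hNr v v.2
  obtain ⟨j, hj⟩ := IsPGroup.iff_card.1 hNp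
  have hqN : ¬ q ∣ Nat.card N := by
    rw [hj]
    intro h
    exact hqr ((Nat.prime_dvd_prime_iff_eq hq hr).1 (hq.dvd_of_dvd_pow h))
  obtain ⟨n₀, hn₀N, hn₀1⟩ : ∃ n₀ ∈ N, n₀ ≠ 1 := by
    by_contra h
    push Not at h
    exact hNne ((Subgroup.eq_bot_iff_forall N).2 h)
  -- `Q` is cyclic, generated by `x₁`
  have hQcyc : ∀ y ∈ Q, y ∈ Subgroup.zpowers x₁ := by
    intro y hyQ
    by_contra hy
    have hy1 : y ≠ 1 := fun h => hy (h ▸ Subgroup.one_mem _)
    have hoy : orderOf y = q := orderOf_eq_prime (hQq y hyQ) hy1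
    have hyL : (y : L) ∉ Subgroup.zpowers (x₁ : L) := by
      intro h
      obtain ⟨k, hk⟩ := Subgroup.mem_zpowers_iff.1 h
      apply hy
      rw [Subgroup.mem_zpowers_iff]
      exact ⟨k, Subtype.ext (by rw [Subgroup.coe_zpow]; exact hk)⟩
    obtain ⟨e, he, he1, w, hw, hw1, hew⟩ := tool_T1 q hq (x₁ : L) (y : L) hox₁L
      (by rw [Subgroup.orderOf_coe]; exact hoy)
      (by
        have := congrArg Subtype.val (hQc x₁ hx₁Q y hyQ)
        simpa using this) hyL N hNne hqN
      (fun w hw => hNn.conj_mem w hw _) (fun w hw => hNn.conj_mem w hw _)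
    have heM : e ∈ M := by
      have hle : Subgroup.closure ({(x₁ : L), (y : L)} : Set L) ≤ M := by
        rw [Subgroup.closure_le]
        intro a ha
        rcases ha with rfl | rfl
        · exact x₁.2
        · exact y.2
      exact hle he
    exact hfpf e heM he1 w hw hw1 hew
  obtain ⟨z, hz⟩ := exists_prime_orderOf_dvd_card' (G := ↥M) q' hq'M
  have hzL : orderOf (z : L) = q' := by rw [Subgroup.orderOf_coe]; exact hz
  by_cases hzx : z * x₁ = x₁ * z
  · refine ⟨((x₁ * z : ↥M) : L), ?_⟩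
    rw [Subgroup.orderOf_coe]
    have hcm : Commute x₁ z := hzx.symm
    rw [hcm.orderOf_mul_eq_mul_orderOf_of_coprime
      (by rw [hox₁, hz]; exact (Nat.coprime_primes hq hq').2 hqq'), hox₁, hz]
  · exfalso
    have hconj : z * x₁ * z⁻¹ ∈ Subgroup.zpowers x₁ := hQcyc _ (hQn.conj_mem x₁ hx₁Q z)
    obtain ⟨i₀, hi₀⟩ := Subgroup.mem_zpowers_iff.1 hconj
    have hconjL : (z : L) * (x₁ : L) * (z : L)⁻¹ = (x₁ : L) ^ i₀ := by
      have := congrArg Subtype.val hi₀
      simpa using this.symm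
    have hgK : ∀ k ∈ Subgroup.zpowers (x₁ : L), (z : L) * k * (z : L)⁻¹ ∈
        Subgroup.zpowers (x₁ : L) := by
      intro k hk
      obtain ⟨j', rfl⟩ := Subgroup.mem_zpowers_iff.1 hk
      rw [← conj_zpow, hconjL]
      exact Subgroup.zpow_mem _ (Subgroup.zpow_mem _ (Subgroup.mem_zpowers _) _) _
    have hcop : (Nat.card (Subgroup.zpowers (x₁ : L))).Coprime (Nat.card N) := by
      rw [Nat.card_zpowers, hox₁L, hj]
      exact Nat.Coprime.pow_right _ ((Nat.coprime_primes hq hr).2 hqr)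
    have hz1 : (z : L) ≠ 1 := by
      intro h
      rw [h, orderOf_one] at hzL
      exact hq'.one_lt.ne hzL
    have hfpfK : ∀ i : ℕ, (z : L) ^ i ≠ 1 → ∀ k ∈ Subgroup.zpowers (x₁ : L),
        (z : L) ^ i * k = k * (z : L) ^ i → k = 1 := by
      intro i hi k hk hcomm
      by_contra hk1
      have h1 : (x₁ : L) ∈ Subgroup.zpowers k :=
        Helper37.FP.mem_zpowers_of_prime_order (by rw [hox₁L]; exact hq) hk hk1
      have h2 : (z : L) ∈ Subgroup.zpowers ((z : L) ^ i) :=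
        Helper37.FP.mem_zpowers_of_prime_order (by rw [hzL]; exact hq')
          (Subgroup.pow_mem _ (Subgroup.mem_zpowers _) i) hi
      obtain ⟨a, ha⟩ := Subgroup.mem_zpowers_iff.1 h1
      obtain ⟨b, hb⟩ := Subgroup.mem_zpowers_iff.1 h2
      have hc : Commute ((z : L) ^ i) k := hcomm
      have hc2 : Commute (((z : L) ^ i) ^ b) (k ^ a) := (hc.zpow_left b).zpow_right a
      rw [ha, hb] at hc2
      apply hzx
      apply Subtype.ext
      simpa using hc2.eq
    have hfix : ∀ w ∈ N, (z : L) * w = w * (z : L) → w = 1 := by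
      intro w hw hzw
      by_contra hw1
      exact hfpf (z : L) z.2 hz1 w hw hw1 hzw
    have hT := Helper29.FP.t2' (Subgroup.zpowers (x₁ : L)) N (z : L) hgK
      (fun w hw => hNn.conj_mem w hw _) (fun k _ w hw => hNn.conj_mem w hw _) hNab hcop
      hfpfK hfix
    have hx₁L1 : (x₁ : L) ≠ 1 := by
      intro h
      rw [h, orderOf_one] at hox₁L
      exact hq.one_lt.ne hox₁L
    exact hfpf (x₁ : L) x₁.2 hx₁L1 n₀ hn₀N hn₀1 (hT _ (Subgroup.mem_zpowers _) n₀ hn₀N)

/-- Higman-type lemma for `S`-groups: a finite solvable group whose order is divisible by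
exactly the three primes of `S` has an element of order `q q'`, `q ≠ q' ∈ S`. -/
theorem exists_mixed_of_pi {L : Type u} [Group L] [Finite L] (hs : Group.IsSolvable L)
    (S : Finset ℕ) (hS : S.card = 3) (hSp : ∀ q ∈ S, q.Prime) (hdvd : ∀ q ∈ S, q ∣ Nat.card L)
    (hpi : ∀ q : ℕ, q.Prime → q ∣ Nat.card L → q ∈ S) :
    ∃ g : L, ∃ q ∈ S, ∃ q' ∈ S, q ≠ q' ∧ orderOf g = q * q' := by
  classical
  haveI := hs
  haveI : Nontrivial L := by
    obtain ⟨q, hq⟩ := Finset.card_pos.1 (by rw [hS]; norm_num : 0 < S.card)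
    have h1 := Nat.le_of_dvd Nat.card_pos (hdvd q hq)
    have h2 := (hSp q hq).two_le
    exact Finite.one_lt_card_iff_nontrivial.1 (by omega)
  obtain ⟨N, hNn, hNne, hNmin⟩ := Helper1.exists_minNormal L
  haveI := hNn
  obtain ⟨hNc, r, hr, hNr⟩ := Helper1.minNormal_elementary N inferInstance hNne hNmin
  haveI : Fact r.Prime := ⟨hr⟩
  have hNab : ∀ a ∈ N, ∀ b ∈ N, a * b = b * a := fun a ha b hb =>
    congrArg Subtype.val (hNc.is_comm.comm ⟨a, ha⟩ ⟨b, hb⟩)
  obtain ⟨n₀, hn₀N, hn₀1⟩ : ∃ n₀ ∈ N, n₀ ≠ 1 := by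
    by_contra h
    push Not at h
    exact hNne ((Subgroup.eq_bot_iff_forall N).2 h)
  have hon₀ : orderOf n₀ = r := orderOf_eq_prime (hNr n₀ hn₀N) hn₀1
  have hrS : r ∈ S := hpi r hr (by rw [← hon₀]; exact orderOf_dvd_natCard n₀)
  obtain ⟨s, u, hsu, hSe⟩ := Finset.card_eq_two.1
    (show (S.erase r).card = 2 by rw [Finset.card_erase_of_mem hrS, hS])
  have hs_mem : s ∈ S.erase r := by rw [hSe]; simp
  have hu_mem : u ∈ S.erase r := by rw [hSe]; simp
  have hsS := Finset.mem_of_mem_erase hs_mem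
  have huS := Finset.mem_of_mem_erase hu_mem
  have hsr := Finset.ne_of_mem_erase hs_mem
  have hur := Finset.ne_of_mem_erase hu_mem
  have hsp := hSp s hsS
  have hup := hSp u huS
  obtain ⟨m', k', hmk, hm', hk'⟩ :=
    Cfsg.Agent.S3745.exists_pi_split ({s, u} : Set ℕ) (Nat.card L) Nat.card_pos.ne'
  have hcop : m'.Coprime k' := Cfsg.Agent.S3745.pi_coprime hm' hk'
  obtain ⟨M, hM⟩ := Helper1.hall_exists m' k' hmk hcop
  have hsm : s ∣ m' := by
    have h1 : s ∣ m' * k' := hmk ▸ hdvd s hsS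
    rcases (Nat.Prime.dvd_mul hsp).1 h1 with h | h
    · exact h
    · exact absurd h (hk' s hsp (by simp))
  have hum : u ∣ m' := by
    have h1 : u ∣ m' * k' := hmk ▸ hdvd u huS
    rcases (Nat.Prime.dvd_mul hup).1 h1 with h | h
    · exact h
    · exact absurd h (hk' u hup (by simp))
  have hMprime : ∀ g ∈ M, ∀ q : ℕ, q.Prime → q ∣ orderOf g → q = s ∨ q = u := by
    intro g hg q hq hqd
    have h1 : orderOf g ∣ Nat.card M := by
      have := orderOf_dvd_natCard (⟨g, hg⟩ : ↥M)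
      rwa [Subgroup.orderOf_mk] at this
    rw [hM] at h1
    have := hm' q hq (dvd_trans hqd h1)
    simpa using this
  by_cases hfix : ∃ g ∈ M, g ≠ 1 ∧ ∃ n ∈ N, n ≠ 1 ∧ g * n = n * g
  · obtain ⟨g, hgM, hg1, n, hnN, hn1, hgn⟩ := hfix
    obtain ⟨q, i, hq, hqd, hoi⟩ := Helper37.FP.exists_pow_prime_order hg1
    have hqsu := hMprime g hgM q hq hqd
    have hqS : q ∈ S := by
      rcases hqsu with h | h
      · exact h ▸ hsS
      · exact h ▸ huS
    have hqr : q ≠ r := by
      rcases hqsu with h | h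
      · exact h ▸ hsr
      · exact h ▸ hur
    have hon : orderOf n = r := orderOf_eq_prime (hNr n hnN) hn1
    have hcm : Commute (g ^ i) n := (show Commute g n from hgn).pow_left i
    refine ⟨g ^ i * n, q, hqS, r, hrS, hqr, ?_⟩
    rw [hcm.orderOf_mul_eq_mul_orderOf_of_coprime
      (by rw [hoi, hon]; exact (Nat.coprime_primes hq hr).2 hqr), hoi, hon]
  · push Not at hfix
    haveI : Nontrivial ↥M := by
      apply Finite.one_lt_card_iff_nontrivial.1
      rw [hM]
      have hm0 : 0 < m' := by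
        rcases Nat.eq_zero_or_pos m' with h | h
        · rw [h, zero_mul] at hmk
          exact absurd hmk Nat.card_pos.ne'
        · exact h
      have := Nat.le_of_dvd hm0 hsm
      have := hsp.two_le
      omega
    obtain ⟨Q, hQn, hQne, hQmin⟩ := Helper1.exists_minNormal ↥M
    haveI := hQn
    obtain ⟨hQc, q, hq, hQq⟩ := Helper1.minNormal_elementary Q inferInstance hQne hQmin
    have hQab : ∀ a ∈ Q, ∀ b ∈ Q, a * b = b * a := fun a ha b hb =>
      congrArg Subtype.val (hQc.is_comm.comm ⟨a, ha⟩ ⟨b, hb⟩)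
    obtain ⟨x₁, hx₁Q, hx₁1⟩ : ∃ x₁ ∈ Q, x₁ ≠ 1 := by
      by_contra h
      push Not at h
      exact hQne ((Subgroup.eq_bot_iff_forall Q).2 h)
    haveI : Fact q.Prime := ⟨hq⟩
    have hox₁ : orderOf x₁ = q := orderOf_eq_prime (hQq x₁ hx₁Q) hx₁1
    have hqsu := hMprime (x₁ : L) x₁.2 q hq (by rw [Subgroup.orderOf_coe, hox₁])
    rcases hqsu with h | h
    · obtain ⟨g, hg⟩ := mixed_core N M hNne hNab r hr hNr hfix Q hQne hQab q hq (h ▸ hsr) hQq
        u hup (h ▸ hsu) (by rw [hM]; exact hum)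
      exact ⟨g, q, h ▸ hsS, u, huS, h ▸ hsu, hg⟩
    · obtain ⟨g, hg⟩ := mixed_core N M hNne hNab r hr hNr hfix Q hQne hQab q hq (h ▸ hur) hQq
        s hsp (h ▸ hsu.symm) (by rw [hM]; exact hsm)
      exact ⟨g, q, h ▸ huS, s, hsS, h ▸ hsu.symm, hg⟩

/-- **Higman-type lemma**: a finite solvable group whose order is divisible by the three
primes of `S` has an element of order `q q'` with `q ≠ q' ∈ S`. -/
theorem exists_mixed {L : Type u} [Group L] [Finite L] (hs : Group.IsSolvable L)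
    (S : Finset ℕ) (hS : S.card = 3) (hSp : ∀ q ∈ S, q.Prime)
    (hdvd : ∀ q ∈ S, q ∣ Nat.card L) :
    ∃ g : L, ∃ q ∈ S, ∃ q' ∈ S, q ≠ q' ∧ orderOf g = q * q' := by
  haveI := hs
  obtain ⟨m, k, hmk, hm, hk⟩ :=
    Cfsg.Agent.S3745.exists_pi_split (↑S : Set ℕ) (Nat.card L) Nat.card_pos.ne'
  have hcop := Cfsg.Agent.S3745.pi_coprime hm hk
  obtain ⟨L₁, hL₁⟩ := Helper1.hall_exists m k hmk hcop
  have h1 : ∀ q ∈ S, q ∣ Nat.card ↥L₁ := by
    intro q hq
    rw [hL₁]
    have h1 : q ∣ m * k := hmk ▸ hdvd q hq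
    rcases (Nat.Prime.dvd_mul (hSp q hq)).1 h1 with h | h
    · exact h
    · exact absurd h (hk q (hSp q hq) (Finset.mem_coe.2 hq))
  have h2 : ∀ q : ℕ, q.Prime → q ∣ Nat.card ↥L₁ → q ∈ S := by
    intro q hq hqd
    rw [hL₁] at hqd
    exact Finset.mem_coe.1 (hm q hq hqd)
  obtain ⟨g, q, hq, q', hq', hne, hg⟩ := exists_mixed_of_pi (L := ↥L₁) inferInstance S hS hSp h1 h2
  exact ⟨(g : L), q, hq, q', hq', hne, by rw [Subgroup.orderOf_coe]; exact hg⟩

/-- **rank**: in a finite solvable group with all edges and no triangle on the four primes of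
`τ`, every element of order `p ∈ τ` lies in a `C_p × C_p`. -/
theorem rank_of_edges {X : Type u} [Group X] [Finite X] (hs : Group.IsSolvable X)
    (τ : Finset ℕ) (hτ : τ.card = 4) (hτp : ∀ p ∈ τ, p.Prime)
    (hE : ∀ p ∈ τ, ∀ q ∈ τ, p ≠ q → ∃ g : X, orderOf g = p * q)
    (hT : ∀ p ∈ τ, ∀ q ∈ τ, ∀ r ∈ τ, p ≠ q → q ≠ r → p ≠ r → ∀ g : X, orderOf g ≠ p * q * r)
    (p : ℕ) (hp : p ∈ τ) (x : X) (hx : orderOf x = p) :
    ∃ y : X, orderOf y = p ∧ x * y = y * x ∧ y ∉ Subgroup.zpowers x := by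
  classical
  haveI := hs
  by_contra hcon
  push Not at hcon
  have hpp := hτp p hp
  haveI : Fact p.Prime := ⟨hpp⟩
  have hx1 : x ≠ 1 := by
    intro h
    rw [h, orderOf_one] at hx
    exact hpp.one_lt.ne hx
  have hxP : IsPGroup p (Subgroup.zpowers x) :=
    IsPGroup.of_card (n := 1) (by rw [Nat.card_zpowers, hx, pow_one])
  obtain ⟨P, hP⟩ := hxP.exists_le_sylow
  have hxmem : x ∈ (P : Subgroup X) := hP (Subgroup.mem_zpowers x)
  -- (a) the elements of order `p` of `P` lie in `⟨x⟩`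
  have ha : ∀ y ∈ (P : Subgroup X), orderOf y = p → y ∈ Subgroup.zpowers x := by
    haveI : Nontrivial ↥(P : Subgroup X) :=
      ⟨⟨⟨x, hxmem⟩, 1, fun h => hx1 (congrArg Subtype.val h)⟩⟩
    have hcen : Nontrivial (Subgroup.center ↥(P : Subgroup X)) :=
      IsPGroup.center_nontrivial P.isPGroup'
    obtain ⟨z, hz1⟩ := exists_ne (1 : Subgroup.center ↥(P : Subgroup X))
    have hzne : ((z : ↥(P : Subgroup X)) : X) ≠ 1 := by
      intro h
      apply hz1
      apply Subtype.ext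
      apply Subtype.ext
      simpa using h
    obtain ⟨s, i, hs', hsd, hoi⟩ := Helper37.FP.exists_pow_prime_order hzne
    have hsp : s = p := by
      have h1 : orderOf ((z : ↥(P : Subgroup X)) : X) ∣ Nat.card (P : Subgroup X) := by
        rw [Subgroup.orderOf_coe]
        exact orderOf_dvd_natCard _
      obtain ⟨k, hk⟩ := IsPGroup.iff_card.1 P.isPGroup'
      rw [hk] at h1
      exact (Nat.prime_dvd_prime_iff_eq hs' hpp).1 (hs'.dvd_of_dvd_pow (dvd_trans hsd h1))
    obtain ⟨z', hz'⟩ : ∃ z' : X, z' = ((z : ↥(P : Subgroup X)) : X) ^ i := ⟨_, rfl⟩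
    have hoz' : orderOf z' = p := by rw [hz']; exact hoi.trans hsp
    have hz'c : ∀ y ∈ (P : Subgroup X), z' * y = y * z' := by
      intro y hy
      have h1 := Subgroup.mem_center_iff.1 z.2 ⟨y, hy⟩
      have h2 : y * ((z : ↥(P : Subgroup X)) : X) = ((z : ↥(P : Subgroup X)) : X) * y := by
        have := congrArg Subtype.val h1
        simpa using this
      have h3 : Commute ((z : ↥(P : Subgroup X)) : X) y := h2.symm
      rw [hz']
      exact (h3.pow_left i).eq
    have hz'x : z' ∈ Subgroup.zpowers x := hcon z' hoz' (hz'c x hxmem).symm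
    have hz'1 : z' ≠ 1 := by
      intro h
      rw [h, orderOf_one] at hoz'
      exact hpp.one_lt.ne hoz'
    have hxz' : x ∈ Subgroup.zpowers z' :=
      Helper37.FP.mem_zpowers_of_prime_order (by rw [hx]; exact hpp) hz'x hz'1
    intro y hy hoy
    apply hcon y hoy
    obtain ⟨k, hk⟩ := Subgroup.mem_zpowers_iff.1 hxz'
    rw [← hk]
    have h3 : Commute z' y := hz'c y hy
    exact (h3.zpow_left k).eq
  -- (b) every element of order `p` is conjugate into `⟨x⟩`
  have hb : ∀ g : X, orderOf g = p → ∃ u : X, u * g * u⁻¹ ∈ Subgroup.zpowers x := by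
    intro g hg
    have hgP : IsPGroup p (Subgroup.zpowers g) :=
      IsPGroup.of_card (n := 1) (by rw [Nat.card_zpowers, hg, pow_one])
    obtain ⟨Q, hQ⟩ := hgP.exists_le_sylow
    obtain ⟨u, hu⟩ := MulAction.exists_smul_eq X Q P
    refine ⟨u, ha _ ?_ (by rw [orderOf_conj', hg])⟩
    rw [← hu, Sylow.coe_subgroup_smul]
    have h1 : MulAut.conj u • g ∈ MulAut.conj u • (Q : Subgroup X) :=
      Subgroup.smul_mem_pointwise_smul g (MulAut.conj u) _ (hQ (Subgroup.mem_zpowers g))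
    simpa [MulAut.smul_def] using h1
  -- (c) `x` commutes with elements of the three other prime orders
  have hc : ∀ q ∈ τ, q ≠ p → ∃ y : X, orderOf y = q ∧ x * y = y * x := by
    intro q hq hqp
    have hqp' := hτp q hq
    obtain ⟨g₀, hg₀⟩ := hE p hp q hq (Ne.symm hqp)
    have h1 : orderOf (g₀ ^ q) = p := by
      rw [orderOf_pow_of_dvd hqp'.ne_zero (by rw [hg₀]; exact dvd_mul_left q p), hg₀,
        Nat.mul_div_cancel _ hqp'.pos]
    obtain ⟨u, hu⟩ := hb (g₀ ^ q) h1
    obtain ⟨g', hg'⟩ : ∃ g' : X, g' = u * g₀ * u⁻¹ := ⟨_, rfl⟩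
    have hg'o : orderOf g' = p * q := by rw [hg', orderOf_conj', hg₀]
    have hg'q : g' ^ q = u * g₀ ^ q * u⁻¹ := by rw [hg', conj_pow]
    have hs1 : g' ^ q ≠ 1 := by
      intro h
      have h2 : orderOf (g' ^ q) = p := by rw [hg'q, orderOf_conj', h1]
      rw [h, orderOf_one] at h2
      exact hpp.one_lt.ne h2
    have hxs : x ∈ Subgroup.zpowers (g' ^ q) :=
      Helper37.FP.mem_zpowers_of_prime_order (by rw [hx]; exact hpp) (hg'q ▸ hu) hs1
    refine ⟨g' ^ p, ?_, ?_⟩
    · rw [orderOf_pow_of_dvd hpp.ne_zero (by rw [hg'o]; exact dvd_mul_right p q), hg'o,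
        Nat.mul_div_cancel_left _ hpp.pos]
    · obtain ⟨k, hk⟩ := Subgroup.mem_zpowers_iff.1 hxs
      rw [← hk]
      have h3 : Commute (g' ^ q) (g' ^ p) := (Commute.refl g').pow_pow q p
      exact (h3.zpow_left k).eq
  -- (d) the centralizer of `x` and the Higman-type lemma
  obtain ⟨C, hC⟩ : ∃ C : Subgroup X, C = Subgroup.centralizer ({x} : Set X) := ⟨_, rfl⟩
  have hSc : (τ.erase p).card = 3 := by rw [Finset.card_erase_of_mem hp, hτ]
  have hdvd : ∀ q ∈ τ.erase p, q ∣ Nat.card ↥C := by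
    intro q hq
    obtain ⟨y, hy, hxy⟩ := hc q (Finset.mem_of_mem_erase hq) (Finset.ne_of_mem_erase hq)
    have hyC : y ∈ C := by
      rw [hC, Subgroup.mem_centralizer_singleton_iff]
      exact hxy.symm
    have := orderOf_dvd_natCard (⟨y, hyC⟩ : ↥C)
    rwa [Subgroup.orderOf_mk, hy] at this
  obtain ⟨g, q, hq, q', hq', hne, hg⟩ := exists_mixed (L := ↥C) inferInstance (τ.erase p) hSc
    (fun q hq => hτp q (Finset.mem_of_mem_erase hq)) hdvd
  have hgx : Commute x (g : X) := by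
    have h1 : (g : X) ∈ Subgroup.centralizer ({x} : Set X) := hC.le g.2
    rw [Subgroup.mem_centralizer_singleton_iff] at h1
    exact h1.symm
  have hog : orderOf (g : X) = q * q' := by rw [Subgroup.orderOf_coe]; exact hg
  have hqp := hτp q (Finset.mem_of_mem_erase hq)
  have hq'p := hτp q' (Finset.mem_of_mem_erase hq')
  have hcop : (orderOf x).Coprime (orderOf (g : X)) := by
    rw [hx, hog]
    exact Nat.Coprime.mul_right ((Nat.coprime_primes hpp hqp).2 (Finset.ne_of_mem_erase hq).symm)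
      ((Nat.coprime_primes hpp hq'p).2 (Finset.ne_of_mem_erase hq').symm)
  have hord : orderOf (x * (g : X)) = p * q * q' := by
    rw [hgx.orderOf_mul_eq_mul_orderOf_of_coprime hcop, hx, hog, mul_assoc]
  exact hT p hp q (Finset.mem_of_mem_erase hq) q' (Finset.mem_of_mem_erase hq')
    (Finset.ne_of_mem_erase hq).symm hne (Finset.ne_of_mem_erase hq').symm _ hord

end Cfsg.Agent.Lib.Helper97.FP
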