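import Mathlib
import Cfsg.Agent.Lib.Helper46.FP.Defs
import Cfsg.Agent.Lib.Helper97.FP.RedTools

/-!
# S3814 team project, package P11: `PkgRed`

Reduction of a solvable group with four primes, all edges and no triangle, to the
configuration `Cfg V H t π` (`G' = V ⋊ H` of minimal order).
-/

set_option autoImplicit false
set_option linter.style.haveILetI false

namespace Cfsg.Agent.Lib.Helper97.FP

open Cfsg.Agent.Lib Cfsg.Agent.Lib.Helper46.FP
open scoped Pointwise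

universe u

/-- all products of two distinct primes of `τ` are element orders -/
def Edge (τ : Finset ℕ) (Γ : Type u) [Group Γ] : Prop :=
  ∀ p ∈ τ, ∀ q ∈ τ, p ≠ q → ∃ g : Γ, orderOf g = p * q

/-- no product of three distinct primes of `τ` is an element order -/
def NoTri (τ : Finset ℕ) (Γ : Type u) [Group Γ] : Prop :=
  ∀ p ∈ τ, ∀ q ∈ τ, ∀ r ∈ τ, p ≠ q → q ≠ r → p ≠ r → ∀ g : Γ, orderOf g ≠ p * q * r

/-- a group of minimal order with all edges and no triangle -/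
theorem exists_min (τ : Finset ℕ) : ∀ n : ℕ, ∀ (Γ : Type u) [Group Γ] [Finite Γ],
    Nat.card Γ = n → Group.IsSolvable Γ → Edge τ Γ → NoTri τ Γ →
    ∃ (Γ' : Type u) (_ : Group Γ') (_ : Finite Γ'), Group.IsSolvable Γ' ∧ Edge τ Γ' ∧
      NoTri τ Γ' ∧
      ∀ Y : Subgroup Γ', (∀ p ∈ τ, ∀ q ∈ τ, p ≠ q → ∃ g ∈ Y, orderOf g = p * q) → Y = ⊤ := by
  intro n
  induction n using Nat.strong_induction_on with
  | _ n ih =>
    intro Γ _ _ hn hs hE hT
    by_cases hmin : ∀ Y : Subgroup Γ,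
        (∀ p ∈ τ, ∀ q ∈ τ, p ≠ q → ∃ g ∈ Y, orderOf g = p * q) → Y = ⊤
    · exact ⟨Γ, inferInstance, inferInstance, hs, hE, hT, hmin⟩
    · push Not at hmin
      obtain ⟨Y, hY, hYtop⟩ := hmin
      have hlt : Nat.card ↥Y < n := by
        rw [← hn]
        have h1 : Nat.card ↥Y ≤ Nat.card Γ := Subgroup.card_le_card_group Y
        rcases lt_or_eq_of_le h1 with h | h
        · exact h
        · exact absurd (Subgroup.eq_top_of_card_eq Y h) hYtop
      haveI := hs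
      refine ih (Nat.card ↥Y) hlt ↥Y rfl inferInstance ?_ ?_
      · intro p hp q hq hpq
        obtain ⟨g, hg, hog⟩ := hY p hp q hq hpq
        exact ⟨⟨g, hg⟩, by rw [Subgroup.orderOf_mk]; exact hog⟩
      · intro p hp q hq r hr hpq hqr hpr g
        rw [← Subgroup.orderOf_coe]
        exact hT p hp q hq r hr hpq hqr hpr g

/-- powers of `h v` with `v` in a normal subgroup -/
theorem mul_pow_mem_normal {X : Type*} [Group X] (V : Subgroup X) [hV : V.Normal] (h v : X)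
    (hv : v ∈ V) (n : ℕ) : ∃ w ∈ V, (h * v) ^ n = h ^ n * w := by
  induction n with
  | zero => exact ⟨1, V.one_mem, by simp⟩
  | succ n ih =>
    obtain ⟨w, hw, hwn⟩ := ih
    refine ⟨h⁻¹ * w * h⁻¹⁻¹ * v, V.mul_mem (hV.conj_mem w hw h⁻¹) hv, ?_⟩
    rw [pow_succ, hwn, pow_succ]
    group

/-- the configuration in a group of minimal order -/
theorem cfg_of_min {X : Type u} [Group X] [Finite X] (hs : Group.IsSolvable X) (τ : Finset ℕ)
    (hτ : τ.card = 4) (hτp : ∀ p ∈ τ, p.Prime) (hE : Edge τ X) (hT : NoTri τ X)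
    (hmin : ∀ Y : Subgroup X,
      (∀ p ∈ τ, ∀ q ∈ τ, p ≠ q → ∃ g ∈ Y, orderOf g = p * q) → Y = ⊤) :
    ∃ (V H : Subgroup X) (t : ℕ) (π : Finset ℕ), Cfg V H t π := by
  classical
  haveI := hs
  -- `X` is a `τ`-group
  have hpiX : ∀ q : ℕ, q.Prime → q ∣ Nat.card X → q ∈ τ := by
    obtain ⟨m, k, hmk, hm, hk⟩ :=
      Cfsg.Agent.S3745.exists_pi_split (↑τ : Set ℕ) (Nat.card X) Nat.card_pos.ne'
    have hcop := Cfsg.Agent.S3745.pi_coprime hm hk
    obtain ⟨Γ₀, hΓ₀⟩ := Helper1.hall_exists m k hmk hcop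
    have htop : Γ₀ = ⊤ := by
      apply hmin
      intro p hp q hq hpq
      obtain ⟨g, hg⟩ := hE p hp q hq hpq
      have hgk : (orderOf g).Coprime k := by
        rw [hg]
        exact Nat.Coprime.mul_left
          ((Nat.Prime.coprime_iff_not_dvd (hτp p hp)).2 (hk p (hτp p hp) (Finset.mem_coe.2 hp)))
          ((Nat.Prime.coprime_iff_not_dvd (hτp q hq)).2 (hk q (hτp q hq) (Finset.mem_coe.2 hq)))
      obtain ⟨u, hu⟩ := exists_conj_mem_hall m k hmk hcop Γ₀ hΓ₀ g hgk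
      exact ⟨u * g * u⁻¹, hu, by rw [orderOf_conj', hg]⟩
    intro q hq hqd
    have h1 : Nat.card X = m := by rw [← hΓ₀, htop, Subgroup.card_top]
    rw [h1] at hqd
    exact Finset.mem_coe.1 (hm q hq hqd)
  haveI : Nontrivial X := by
    obtain ⟨p, hp, q, hq, hpq⟩ := Finset.one_lt_card.1 (by rw [hτ]; norm_num : 1 < τ.card)
    obtain ⟨g, hg⟩ := hE p hp q hq hpq
    refine ⟨⟨g, 1, fun h => ?_⟩⟩
    rw [h, orderOf_one] at hg
    have h1 := (hτp p hp).two_le
    have h2 := (hτp q hq).two_le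
    nlinarith
  obtain ⟨V, hVn, hVne, hVmin⟩ := Helper1.exists_minNormal X
  haveI := hVn
  obtain ⟨hVc, t, ht, hVt⟩ := Helper1.minNormal_elementary V inferInstance hVne hVmin
  haveI : Fact t.Prime := ⟨ht⟩
  have hVab : ∀ a ∈ V, ∀ b ∈ V, a * b = b * a := fun a ha b hb =>
    congrArg Subtype.val (hVc.is_comm.comm ⟨a, ha⟩ ⟨b, hb⟩)
  obtain ⟨v₀, hv₀V, hv₀1⟩ : ∃ v₀ ∈ V, v₀ ≠ 1 := by
    by_contra h
    push Not at h
    exact hVne ((Subgroup.eq_bot_iff_forall V).2 h)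
  have hov₀ : orderOf v₀ = t := orderOf_eq_prime (hVt v₀ hv₀V) hv₀1
  have htτ : t ∈ τ := hpiX t ht (by rw [← hov₀]; exact orderOf_dvd_natCard v₀)
  have hVp : IsPGroup t V := by
    intro v
    refine ⟨1, ?_⟩
    apply Subtype.ext
    rw [pow_one, Subgroup.coe_pow, Subgroup.coe_one]
    exact hVt v v.2
  obtain ⟨j, hj⟩ := IsPGroup.iff_card.1 hVp
  have hoV : ∀ v ∈ V, v ≠ 1 → orderOf v = t := fun v hv hv1 => orderOf_eq_prime (hVt v hv) hv1
  -- the three other primes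
  obtain ⟨π, hπ⟩ : ∃ π : Finset ℕ, π = τ.erase t := ⟨_, rfl⟩
  have hπ3 : π.card = 3 := by rw [hπ, Finset.card_erase_of_mem htτ, hτ]
  have hπτ : ∀ p ∈ π, p ∈ τ := fun p hp => Finset.mem_of_mem_erase (hπ ▸ hp)
  have hπt : ∀ p ∈ π, p ≠ t := fun p hp => Finset.ne_of_mem_erase (hπ ▸ hp)
  have hmemπ : ∀ p ∈ τ, p ≠ t → p ∈ π := fun p hp hpt => hπ ▸ Finset.mem_erase.2 ⟨hpt, hp⟩
  have hinsert : insert t π = τ := by rw [hπ]; exact Finset.insert_erase htτ
  have hπp : ∀ p ∈ π, p.Prime := fun p hp => hτp p (hπτ p hp)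
  have hcoppt : ∀ p ∈ π, p.Coprime t := fun p hp => (Nat.coprime_primes (hπp p hp) ht).2 (hπt p hp)
  -- Hall `π`-subgroup
  obtain ⟨m, k, hmk, hm, hk⟩ :=
    Cfsg.Agent.S3745.exists_pi_split (↑π : Set ℕ) (Nat.card X) Nat.card_pos.ne'
  have hcop := Cfsg.Agent.S3745.pi_coprime hm hk
  obtain ⟨H, hH⟩ := Helper1.hall_exists m k hmk hcop
  have hkt : ∀ q : ℕ, q.Prime → q ∣ k → q = t := by
    intro q hq hqk
    have h1 : q ∈ τ := hpiX q hq (by rw [hmk]; exact Dvd.dvd.mul_left hqk m)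
    by_contra hne
    exact hk q hq (Finset.mem_coe.2 (hmemπ q h1 hne)) hqk
  have hcopk : ∀ a : ℕ, a.Coprime t → a.Coprime k := by
    intro a ha
    apply Nat.coprime_of_dvd
    intro q hq hqa hqk
    have h1 := hkt q hq hqk
    rw [h1] at hqa
    have h2 := Nat.eq_one_of_dvd_coprimes ha hqa (dvd_refl t)
    exact ht.one_lt.ne' h2
  have hmt : m.Coprime t := by
    rw [Nat.coprime_comm, Nat.Prime.coprime_iff_not_dvd ht]
    intro h
    exact hπt t (Finset.mem_coe.1 (hm t ht h)) rfl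
  have hinf : H ⊓ V = ⊥ :=
    (Subgroup.disjoint_of_coprime_natCard
      (by rw [hH, hj]; exact Nat.Coprime.pow_right j hmt)).eq_bot
  have hrank := fun p hp x hx => rank_of_edges hs τ hτ hτp hE hT p hp x hx
  -- edges inside `H`
  have hππ : ∀ p ∈ π, ∀ q ∈ π, p ≠ q → ∃ g ∈ H, orderOf g = p * q := by
    intro p hp q hq hpq
    obtain ⟨g, hg⟩ := hE p (hπτ p hp) q (hπτ q hq) hpq
    have hgk : (orderOf g).Coprime k := by
      rw [hg]
      exact Nat.Coprime.mul_left (hcopk p (hcoppt p hp)) (hcopk q (hcoppt q hq))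
    obtain ⟨u, hu⟩ := exists_conj_mem_hall m k hmk hcop H hH g hgk
    exact ⟨u * g * u⁻¹, hu, by rw [orderOf_conj', hg]⟩
  -- edges `(p, t)` inside `H ⊔ V`
  have htp : ∀ p ∈ π, ∃ g ∈ H ⊔ V, orderOf g = p * t := by
    intro p hp
    have hpp := hπp p hp
    haveI : Fact p.Prime := ⟨hpp⟩
    obtain ⟨g₁, hg₁⟩ := hE p (hπτ p hp) t htτ (hπt p hp)
    have hx₀ : orderOf (g₁ ^ t) = p := by
      rw [orderOf_pow_of_dvd ht.ne_zero (by rw [hg₁]; exact dvd_mul_left t p), hg₁,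
        Nat.mul_div_cancel _ ht.pos]
    obtain ⟨y₀, hy₀, hxy₀, hyx₀⟩ := hrank p (hπτ p hp) (g₁ ^ t) hx₀
    have hUp : IsPGroup p (Subgroup.closure ({g₁ ^ t, y₀} : Set X)) :=
      Helper90.isPGroup_closure_pair (g₁ ^ t) y₀ hxy₀
        (by rw [← hx₀]; exact pow_orderOf_eq_one _) (by rw [← hy₀]; exact pow_orderOf_eq_one _)
    obtain ⟨a, ha⟩ := IsPGroup.iff_card.1 hUp
    obtain ⟨u, hu⟩ := exists_conj_le_hall m k hmk hcop H hH
      (Subgroup.closure ({g₁ ^ t, y₀} : Set X))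
      (by rw [ha]; exact hcopk _ (Nat.Coprime.pow_left a (hcoppt p hp)))
    have hpV : ¬ p ∣ Nat.card V := by
      rw [hj]
      intro h
      exact hπt p hp ((Nat.prime_dvd_prime_iff_eq hpp ht).1 (hpp.dvd_of_dvd_pow h))
    obtain ⟨e, he, he1, w, hw, hw1, hew⟩ := tool_T1 p hpp (g₁ ^ t) y₀ hx₀ hy₀ hxy₀ hyx₀ V hVne hpV
      (fun w hw => hVn.conj_mem w hw _) (fun w hw => hVn.conj_mem w hw _)
    obtain ⟨s, i, hs', hsd, hoi⟩ := Helper37.FP.exists_pow_prime_order he1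
    have hsp : s = p := by
      have h1 : orderOf e ∣ Nat.card (Subgroup.closure ({g₁ ^ t, y₀} : Set X)) := by
        have := orderOf_dvd_natCard
          (⟨e, he⟩ : ↥(Subgroup.closure ({g₁ ^ t, y₀} : Set X)))
        rwa [Subgroup.orderOf_mk] at this
      rw [ha] at h1
      exact (Nat.prime_dvd_prime_iff_eq hs' hpp).1 (hs'.dvd_of_dvd_pow (dvd_trans hsd h1))
    have hoe : orderOf (e ^ i) = p := hoi.trans hsp
    have how : orderOf w = t := hoV w hw hw1
    have hcm : Commute (e ^ i) w := (show Commute e w from hew).pow_left i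
    refine ⟨u * (e ^ i * w) * u⁻¹, ?_, ?_⟩
    · have h1 : u * (e ^ i * w) * u⁻¹ = (u * e ^ i * u⁻¹) * (u * w * u⁻¹) := by group
      rw [h1]
      exact Subgroup.mul_mem_sup (hu _ (Subgroup.pow_mem _ he i)) (hVn.conj_mem w hw u)
    · rw [orderOf_conj', hcm.orderOf_mul_eq_mul_orderOf_of_coprime
        (by rw [hoe, how]; exact hcoppt p hp), hoe, how]
  -- `X = V ⋊ H`
  have hsup : H ⊔ V = ⊤ := by
    apply hmin
    intro p hp q hq hpq
    by_cases hpt : p = t
    · have hqπ : q ∈ π := hmemπ q hq (fun h => hpq (hpt.trans h.symm))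
      obtain ⟨g, hg, hog⟩ := htp q hqπ
      exact ⟨g, hg, by rw [hog, hpt, mul_comm]⟩
    · have hpπ : p ∈ π := hmemπ p hp hpt
      by_cases hqt : q = t
      · obtain ⟨g, hg, hog⟩ := htp p hpπ
        exact ⟨g, hg, by rw [hog, hqt]⟩
      · have hqπ : q ∈ π := hmemπ q hq hqt
        obtain ⟨g, hg, hog⟩ := hππ p hpπ q hqπ hpq
        exact ⟨g, Subgroup.mem_sup_left hg, hog⟩
  have hmemtop : ∀ g : X, ∃ h ∈ H, ∃ v ∈ V, h * v = g := by
    intro g
    have h1 : g ∈ H ⊔ V := by rw [hsup]; exact Subgroup.mem_top g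
    exact Subgroup.mem_sup_of_normal_right.1 h1
  refine ⟨V, H, t, π, ?_⟩
  refine
    { fin := inferInstance
      solv := hs
      tprime := ht
      piprime := hπp
      tnot := by rw [hπ]; exact Finset.notMem_erase t τ
      card3 := hπ3
      Vnormal := hVn
      Vcomm := hVab
      Vexp := hVt
      Vne := hVne
      Vmin := fun W hW hWV => hVmin W hW hWV
      inf := hinf
      sup := hsup
      Hpi := fun p hp hpd => Finset.mem_coe.1 (hm p hp (hH ▸ hpd))
      pair := hππ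
      notriple := by rw [hinsert]; exact hT
      rank := ?_
      minimal := ?_ }
  · -- rank
    intro p hp x hxH hox
    have hpp := hπp p hp
    haveI : Fact p.Prime := ⟨hpp⟩
    obtain ⟨y, hy, hxy, hyx⟩ := hrank p (hπτ p hp) x hox
    obtain ⟨h, hh, v, hv, hhv⟩ := hmemtop y
    have hconj : x * (h * v) * x⁻¹ = h * v := by
      rw [hhv, hxy]
      group
    have key : h⁻¹ * (x * h * x⁻¹) = v * (x * v * x⁻¹)⁻¹ := by
      calc h⁻¹ * (x * h * x⁻¹) = h⁻¹ * (x * (h * v) * x⁻¹) * (x * v * x⁻¹)⁻¹ := by group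
        _ = h⁻¹ * (h * v) * (x * v * x⁻¹)⁻¹ := by rw [hconj]
        _ = v * (x * v * x⁻¹)⁻¹ := by group
    have hmemH : h⁻¹ * (x * h * x⁻¹) ∈ H :=
      H.mul_mem (H.inv_mem hh) (H.mul_mem (H.mul_mem hxH hh) (H.inv_mem hxH))
    have hmemV : h⁻¹ * (x * h * x⁻¹) ∈ V := by
      rw [key]
      exact V.mul_mem hv (V.inv_mem (hVn.conj_mem v hv x))
    have h1 : h⁻¹ * (x * h * x⁻¹) = 1 := by
      have h2 : h⁻¹ * (x * h * x⁻¹) ∈ H ⊓ V := ⟨hmemH, hmemV⟩
      rwa [hinf, Subgroup.mem_bot] at h2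
    have hxh : x * h = h * x := by
      calc x * h = h * (h⁻¹ * (x * h * x⁻¹)) * x := by group
        _ = h * x := by rw [h1, mul_one]
    have hxv : x * v = v * x := by
      have h3 : v * (x * v * x⁻¹)⁻¹ = 1 := by rw [← key, h1]
      calc x * v = (v * (x * v * x⁻¹)⁻¹)⁻¹ * v * x := by group
        _ = v * x := by rw [h3, inv_one, one_mul]
    have hyp : y ^ p = 1 := by rw [← hy]; exact pow_orderOf_eq_one y
    obtain ⟨w, hw, hwp⟩ := mul_pow_mem_normal V h v hv p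
    have hhp : h ^ p = 1 := by
      have h4 : h ^ p = w⁻¹ := by
        rw [hhv, hyp] at hwp
        exact eq_inv_of_mul_eq_one_left hwp.symm
      have h5 : h ^ p ∈ H ⊓ V := ⟨H.pow_mem hh p, by rw [h4]; exact V.inv_mem hw⟩
      rwa [hinf, Subgroup.mem_bot] at h5
    have hcoppt' : p.Coprime t := hcoppt p hp
    have hh1 : h ≠ 1 := by
      intro h6
      rw [h6, one_mul] at hhv
      have h7 : y ^ t = 1 := by rw [← hhv]; exact hVt v hv
      have h8 : y = 1 := Cfsg.Agent.Lib.Helper87.eq_one_of_pow_coprime hyp h7 hcoppt'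
      rw [h8, orderOf_one] at hy
      exact hpp.one_lt.ne hy
    refine ⟨h, hh, orderOf_eq_prime hhp hh1, hxh, ?_⟩
    intro hmem
    obtain ⟨c, hc⟩ := Subgroup.mem_zpowers_iff.1 hmem
    have hcv : Commute h v := by
      rw [← hc]
      exact (show Commute x v from hxv).zpow_left c
    have h9 : v ^ p = 1 := by
      have h10 : (h * v) ^ p = h ^ p * v ^ p := hcv.mul_pow p
      rw [hhv, hyp, hhp, one_mul] at h10
      exact h10.symm
    have h11 : v = 1 := Cfsg.Agent.Lib.Helper87.eq_one_of_pow_coprime h9 (hVt v hv) hcoppt'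
    apply hyx
    rw [← hhv, h11, mul_one]
    exact hmem
  · -- minimality
    intro K hKH hKpair hKfix
    have htop : K ⊔ V = ⊤ := by
      apply hmin
      have hKt : ∀ p ∈ π, ∃ g ∈ K ⊔ V, orderOf g = p * t := by
        intro p hp
        obtain ⟨x, hxK, hox, v, hv, hv1, hvx⟩ := hKfix p hp
        have hcm : Commute x v := hvx.symm
        refine ⟨x * v, Subgroup.mul_mem_sup hxK hv, ?_⟩
        rw [hcm.orderOf_mul_eq_mul_orderOf_of_coprime
          (by rw [hox, hoV v hv hv1]; exact hcoppt p hp), hox, hoV v hv hv1]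
      intro p hp q hq hpq
      by_cases hpt : p = t
      · have hqπ : q ∈ π := hmemπ q hq (fun h => hpq (hpt.trans h.symm))
        obtain ⟨g, hg, hog⟩ := hKt q hqπ
        exact ⟨g, hg, by rw [hog, hpt, mul_comm]⟩
      · have hpπ : p ∈ π := hmemπ p hp hpt
        by_cases hqt : q = t
        · obtain ⟨g, hg, hog⟩ := hKt p hpπ
          exact ⟨g, hg, by rw [hog, hqt]⟩
        · have hqπ : q ∈ π := hmemπ q hq hqt
          obtain ⟨g, hg, hog⟩ := hKpair p hpπ q hqπ hpq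
          exact ⟨g, Subgroup.mem_sup_left hg, hog⟩
    apply le_antisymm hKH
    intro h hh
    have h1 : h ∈ K ⊔ V := by rw [htop]; exact Subgroup.mem_top h
    obtain ⟨k', hk', v, hv, hkv⟩ := Subgroup.mem_sup_of_normal_right.1 h1
    have h2 : v ∈ H ⊓ V := by
      refine ⟨?_, hv⟩
      have h3 : v = k'⁻¹ * h := by rw [← hkv]; group
      rw [h3]
      exact H.mul_mem (H.inv_mem (hKH hk')) hh
    rw [hinf, Subgroup.mem_bot] at h2
    rw [← hkv, h2, mul_one]
    exact hk'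

/-- package P11 of the S3814 team project -/
theorem pkgRed : Cfsg.Agent.Lib.Helper46.FP.PkgRed.{u} := by
  intro G _ _ σ hσ hprime h2 h3 hsolv
  obtain ⟨τ, hτσ, hτ4⟩ := Finset.exists_subset_card_eq hσ
  have hE : Edge τ G := fun p hp q hq hpq => h2 p (hτσ hp) q (hτσ hq) hpq
  have hT : NoTri τ G := fun p hp q hq r hr => h3 p (hτσ hp) q (hτσ hq) r (hτσ hr)
  obtain ⟨X, instG, instF, hs', hE', hT', hmin⟩ := exists_min τ (Nat.card G) G rfl hsolv hE hT
  obtain ⟨V, H, t, π, hc⟩ := cfg_of_min hs' τ hτ4 (fun p hp => hprime p (hτσ hp)) hE' hT' hmin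
  exact ⟨X, instG, V, H, t, π, hc⟩

end Cfsg.Agent.Lib.Helper97.FP
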